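import Mathlib

/-!
# Facts on `SL₂(3)` (helper796)
-/

set_option autoImplicit false
set_option maxRecDepth 100000

namespace Cfsg.Agent.H796.SlThree

open Matrix

abbrev M := SpecialLinearGroup (Fin 2) (ZMod 3)

theorem f1 : ∀ a b : M, a ^ 4 = 1 → b ^ 4 = 1 → (a * b) ^ 4 = 1 := by decide +kernel

theorem f2 : ∀ a : M, a ^ 12 = 1 := by decide +kernel

theorem f4 : ∀ i j : M, i ^ 2 = -1 → j ^ 2 = -1 → j ≠ i → j ≠ i⁻¹ → j * i = (i * j)⁻¹ ∧ (i * j) ^ 2 = -1 := by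
  decide +kernel

theorem f4' : ∀ i g : M, i ^ 2 = -1 → g ^ 4 ≠ 1 → g * i * g⁻¹ ≠ i ∧ g * i * g⁻¹ ≠ i⁻¹ := by
  decide +kernel

theorem f5 : ∀ a : M, a ^ 4 = 1 → a = 1 ∨ a = -1 ∨ a ^ 2 = -1 := by decide +kernel

theorem f6 : Fintype.card {p : M × M // p.1 ^ 2 = -1 ∧ p.2 ^ 2 = -1 ∧ p.2 ≠ p.1 ∧ p.2 ≠ p.1⁻¹} = 24 := by
  decide +kernel

def i0 : M := ⟨!![0, 1; -1, 0], by decide⟩

def j0 : M := ⟨!![1, 1; 1, -1], by decide⟩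

theorem f7 : i0 ^ 2 = -1 ∧ j0 ^ 2 = -1 ∧ j0 ≠ i0 ∧ j0 ≠ i0⁻¹ := by decide +kernel

theorem f8 : ∃ g : M, g ^ 4 ≠ 1 := by decide +kernel

theorem f9 : ∀ j q : M, j ^ 2 = -1 → q ^ 4 = 1 → q * j⁻¹ * q⁻¹ = j ∨ q * j⁻¹ * q⁻¹ = j⁻¹ := by decide +kernel

theorem f10 : ∀ a : M, a ^ 4 = 1 → a = 1 ∨ a = -1 ∨ a = i0 ∨ a = i0⁻¹ ∨ a = j0 ∨ a = j0⁻¹ ∨ a = i0 * j0 ∨
    a = (i0 * j0)⁻¹ := by decide +kernel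

theorem f11 : Fintype.card M = 24 := by decide +kernel

theorem f12 : (-1 : M) ≠ 1 ∧ (-1 : M) ^ 2 = 1 := by decide +kernel

end Cfsg.Agent.H796.SlThree
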