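import Cfsg.Agent.H355.LspDefs
import Cfsg.Agent.H796.SlBig
import Cfsg.Agent.H796.SlThree
import Cfsg.Agent.CharDeep.QuatSylowBasic
import Cfsg.Agent.Lib.Cores

/-!
# Groups of fixity two with a normal subgroup `SL₂(q)` (helper796, for S3392)
-/

set_option autoImplicit false
set_option linter.unusedSectionVars false

open Cfsg

namespace Cfsg.Agent.H796.SlCase

open MulAction SlBig SlThree

theorem map_center {A B : Type*} [Group A] [Group B] (e : A ≃* B) :
    (Subgroup.center A).map e.toMonoidHom = Subgroup.center B := by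
  ext x
  constructor
  · rintro ⟨y, hy, rfl⟩
    rw [Subgroup.mem_center_iff]
    intro g
    have h1 := Subgroup.mem_center_iff.1 hy (e.symm g)
    have h2 := congrArg e h1
    rwa [map_mul, map_mul, e.apply_symm_apply] at h2
  · intro hx
    refine ⟨e.symm x, ?_, e.apply_symm_apply x⟩
    show e.symm x ∈ Subgroup.center A
    rw [Subgroup.mem_center_iff]
    intro g
    have h1 := Subgroup.mem_center_iff.1 hx (e g)
    have h2 := congrArg e.symm h1
    rwa [map_mul, map_mul, e.symm_apply_apply] at h2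

/-- point stabilizer `D`, involution `t ∈ D`, `K` with a unique involution `z` -/
structure Cfg {Y : Type*} [Group Y] (D K : Subgroup Y) (t z : Y) : Prop where
  hz : orderOf z = 2
  hzc : ∀ g : Y, z * g = g * z
  hzK : z ∈ K
  uniq : ∀ x ∈ K, orderOf x = 2 → x = z
  hzD : z ∉ D
  htD : t ∈ D
  ht : orderOf t = 2
  ti : ∀ g d : Y, d ∈ D → d ≠ 1 → g * d * g⁻¹ ∈ D → g ∈ D ∨ z * g ∈ D

namespace Cfg

variable {Y : Type*} [Group Y] [Finite Y] {D K : Subgroup Y} {t z : Y} (c : Cfg D K t z)

include c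

theorem zz : z * z = 1 := by
  have := pow_orderOf_eq_one z
  rwa [c.hz, pow_two] at this

theorem tt : t * t = 1 := by
  have := pow_orderOf_eq_one t
  rwa [c.ht, pow_two] at this

theorem z1 : z ≠ 1 := by
  intro h
  have := c.hz
  rw [h, orderOf_one] at this
  omega

theorem t1 : t ≠ 1 := by
  intro h
  have := c.ht
  rw [h, orderOf_one] at this
  omega

theorem zinv : z⁻¹ = z := (eq_inv_of_mul_eq_one_left c.zz).symm

theorem tinv : t⁻¹ = t := (eq_inv_of_mul_eq_one_left c.tt).symm

theorem htK : t ∉ K := fun h => c.hzD (by rw [← c.uniq t h c.ht]; exact c.htD)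

theorem sq_eq {x : Y} (hx : x ∈ K) (h : x * x = 1) : x = 1 ∨ x = z := by
  by_cases h1 : x = 1
  · exact Or.inl h1
  · exact Or.inr (c.uniq x hx (orderOf_eq_prime (by rw [pow_two, h]) h1))

theorem odd {d : Y} (hd : d ∈ D) (hdK : d ∈ K) : Odd (orderOf d) := by
  rw [← Nat.not_even_iff_odd, even_iff_two_dvd]
  intro h2
  have h3 : orderOf (d ^ (orderOf d / 2)) = 2 :=
    orderOf_pow_orderOf_div (orderOf_pos d).ne' h2
  exact c.hzD (by rw [← c.uniq _ (pow_mem hdK _) h3]; exact pow_mem hd _)

theorem cen {g : Y} (h : g * t = t * g) : g ∈ D ∨ z * g ∈ D :=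
  c.ti g t c.htD c.t1 (by rw [h, mul_inv_cancel_right]; exact c.htD)

/-- 2-elements of `K` commuting with `t` -/
theorem four {g : Y} (hg : g ∈ K) (h4 : g ^ 4 = 1) (h : g * t = t * g) : g = 1 ∨ g = z := by
  have key : ∀ x : Y, x ∈ D → x ∈ K → x ^ 4 = 1 → x = 1 := by
    intro x hx hxK h4
    have h1 := orderOf_dvd_of_pow_eq_one h4
    have h2 := c.odd hx hxK
    have h3 : orderOf x ≤ 4 := Nat.le_of_dvd (by norm_num) h1
    rw [← orderOf_eq_one_iff]
    interval_cases h5 : orderOf x <;> simp_all (config := {decide := true})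
  rcases c.cen h with h1 | h1
  · exact Or.inl (key g h1 hg h4)
  · right
    have h2 := key _ h1 (mul_mem c.hzK hg) (by
      rw [Commute.mul_pow (c.hzc g), h4, mul_one]
      rw [show (4 : ℕ) = 2 * 2 from rfl, pow_mul, pow_two z, c.zz, one_pow])
    rw [← c.zinv]
    exact (eq_inv_of_mul_eq_one_right h2)

/-- **`q > 3` is impossible** -/
theorem big {L : Subgroup Y} [hL : L.Normal] (hLK : L ≤ K) {F : Type} [Field F] [Fintype F]
    (e : L ≃* Matrix.SpecialLinearGroup (Fin 2) F) (hodd : Odd (Fintype.card F)) (h5 : 5 ≤ Fintype.card F) : False := by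
  classical
  have hcard : Nat.card L = Fintype.card F * (Fintype.card F ^ 2 - 1) := by
    rw [Nat.card_congr e.toEquiv, ClassicalGeometry.PSL2Basic.card_SL2]
  obtain ⟨m, hm⟩ := hodd
  have hcard' : Nat.card L = (2 * m + 1) * (4 * (m * (m + 1))) := by
    rw [hcard, hm]
    congr 1
    have : (2 * m + 1) ^ 2 = 4 * (m * (m + 1)) + 1 := by ring
    rw [this, Nat.add_sub_cancel]
  have h4 : 4 ∣ Nat.card L := ⟨(2 * m + 1) * (m * (m + 1)), by rw [hcard']; ring⟩
  have h2F : (2 : F) ≠ 0 := by
    intro h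
    have h1 : ((Fintype.card F : ℕ) : F) = 0 := by simp
    rw [hm] at h1
    push_cast at h1
    rw [h, zero_mul, zero_add] at h1
    exact one_ne_zero h1
  -- `z` corresponds to `-1`
  have hneg : (-1 : Matrix.SpecialLinearGroup (Fin 2) F) ≠ 1 := by
    intro h
    have h1 := congrArg (fun x : Matrix.SpecialLinearGroup (Fin 2) F => x.1 0 0) h
    simp at h1
    apply h2F
    linear_combination -h1
  have hneg2 : (-1 : Matrix.SpecialLinearGroup (Fin 2) F) * (-1) = 1 := by
    rw [neg_mul_neg, one_mul]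
  have hzL : ∃ hz : z ∈ L, e ⟨z, hz⟩ = -1 := by
    have h1 : ((e.symm (-1) : L) : Y) = z := by
      rcases c.sq_eq (hLK (e.symm (-1)).2) (by
        have := congrArg (Subtype.val) (map_mul e.symm (-1) (-1))
        rw [hneg2, map_one] at this
        exact this.symm) with h | h
      · exfalso
        apply hneg
        have h2 : e.symm (-1) = 1 := Subtype.ext h
        rw [← e.apply_symm_apply (-1), h2, map_one]
      · exact h
    refine ⟨by rw [← h1]; exact (e.symm (-1)).2, ?_⟩
    have h2 : (⟨z, by rw [← h1]; exact (e.symm (-1)).2⟩ : L) = e.symm (-1) := Subtype.ext h1.symm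
    rw [h2, e.apply_symm_apply]
  obtain ⟨hzL, hez⟩ := hzL
  have hord : orderOf (⟨z, hzL⟩ : L) = 2 := by rw [Subgroup.orderOf_mk, c.hz]
  have hcen : ∀ g : L, g ∈ Subgroup.center L ↔ g = 1 ∨ g = ⟨z, hzL⟩ := by
    intro g
    constructor
    · intro hg
      have h1 : e g ∈ Subgroup.center (Matrix.SpecialLinearGroup (Fin 2) F) := by
        rw [Subgroup.mem_center_iff]
        intro x
        have h2 := Subgroup.mem_center_iff.1 hg (e.symm x)
        have h3 := congrArg e h2
        rwa [map_mul, map_mul, e.apply_symm_apply] at h3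
      rw [Matrix.SpecialLinearGroup.mem_center_iff] at h1
      obtain ⟨r, hr, hr2⟩ := h1
      have h2 : Sc (e g) := by
        refine ⟨?_, ?_, ?_⟩ <;> rw [← hr2] <;> simp
      rcases eq_of_sc h2 with h3 | h3
      · left; apply e.injective; rw [h3, map_one]
      · right; apply e.injective; rw [h3, hez]
    · rintro (rfl | rfl)
      · exact one_mem _
      · rw [Subgroup.mem_center_iff]
        intro g
        exact Subtype.ext (c.hzc g).symm
  have hsimple : IsSimpleGroup (L ⧸ Subgroup.center L) := by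
    have h1 : (Subgroup.center L).map e.toMonoidHom = Subgroup.center (Matrix.SpecialLinearGroup (Fin 2) F) :=
      map_center e
    have h2 : IsSimpleGroup (Matrix.ProjectiveSpecialLinearGroup (Fin 2) F) :=
      Matrix.ProjectiveSpecialLinearGroup.rank_two_simple (by rw [Nat.card_eq_fintype_card]; omega)
    exact (QuotientGroup.congr (Subgroup.center L) (Subgroup.center (Matrix.SpecialLinearGroup (Fin 2) F)) e h1).isSimpleGroup
  have hbot : D.subgroupOf L = ⊥ := by
    refine eq_bot_of_ti ⟨z, hzL⟩ hord hcen h4 (D.subgroupOf L) ?_ ?_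
    · intro d hd
      rw [← Subgroup.orderOf_coe]
      exact c.odd hd (hLK d.2)
    · intro g d hd hd1 hg
      exact c.ti g d hd (fun h => hd1 (Subtype.ext h)) hg
  have hC : ∀ g ∈ L, g * t = t * g → g = 1 ∨ g = z := by
    intro g hg h
    rcases c.cen h with h1 | h1
    · left
      have h2 : (⟨g, hg⟩ : L) ∈ D.subgroupOf L := h1
      rw [hbot, Subgroup.mem_bot] at h2
      exact congrArg Subtype.val h2
    · right
      have h2 : (⟨z * g, mul_mem hzL hg⟩ : L) ∈ D.subgroupOf L := h1
      rw [hbot, Subgroup.mem_bot] at h2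
      have h3 : z * g = 1 := congrArg Subtype.val h2
      rw [← c.zinv]
      exact eq_inv_of_mul_eq_one_right h3
  have hbound := card_sq_le L c.tt hzL hC
  have hcomm : Nat.card {p : L × L // Commute p.1 p.2} ≤ Nat.card L * (Fintype.card F ^ 2 + 1) := by
    rw [Nat.card_congr e.toEquiv]
    refine le_trans ?_ comm_le
    refine Nat.card_le_card_of_injective (fun p => ⟨(e p.1.1, e p.1.2), by
      show e p.1.1 * e p.1.2 = e p.1.2 * e p.1.1
      rw [← map_mul, ← map_mul, p.2.eq]⟩) ?_
    rintro ⟨⟨a, b⟩, h⟩ ⟨⟨a', b'⟩, h'⟩ hab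
    have h1 := congrArg Subtype.val hab
    have h2 : e a = e a' := congrArg Prod.fst h1
    have h3 : e b = e b' := congrArg Prod.snd h1
    apply Subtype.ext
    rw [Prod.mk.injEq]
    exact ⟨e.injective h2, e.injective h3⟩
  have h6 : Nat.card L ≤ 4 * (Fintype.card F ^ 2 + 1) := by
    have h7 : 0 < Nat.card L := Nat.card_pos
    have h8 : Nat.card L * Nat.card L ≤ Nat.card L * (4 * (Fintype.card F ^ 2 + 1)) := by
      calc Nat.card L * Nat.card L = Nat.card L ^ 2 := by ring
        _ ≤ 4 * Nat.card {p : L × L // Commute p.1 p.2} := hbound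
        _ ≤ 4 * (Nat.card L * (Fintype.card F ^ 2 + 1)) := Nat.mul_le_mul_left 4 hcomm
        _ = _ := by ring
    exact Nat.le_of_mul_le_mul_left h8 h7
  rw [hcard', hm] at h6
  have h9 : 2 ≤ m := by omega
  obtain ⟨k, rfl⟩ := Nat.exists_eq_add_of_le h9
  nlinarith [sq_nonneg k, mul_nonneg (Nat.zero_le k) (Nat.zero_le k)]

end Cfg

end Cfsg.Agent.H796.SlCase
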