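import Cfsg.Agent.H796.SporPhi
import Cfsg.Agent.H747.RowTwo

/-!
# S5161: the rows `J2`, `J3`, `J4`, `Suz`, `Co1`, `Co2`, `Th`, `HN`, `Fi24'`, `B`, `M` (helper796)
-/

set_option autoImplicit false

namespace Cfsg.Agent.H796.SporRows

open Subgroup Cfsg Cfsg.Agent.H799.JSheet Cfsg.Agent.H747

universe u

variable {X : Type u} [Group X] [Finite X]

/-- `Phi` gives the first kind of row. -/
theorem oddRow_of_phi {S : Sylow 2 X} (h : Phi (S : Subgroup X)) : OddRow X := by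
  obtain ⟨V, h1, h2, h3, h4⟩ := h
  refine OddRow.of_one S h1 h2 (inf_le_right.trans h3) fun g hg => ⟨1, one_mem _, ?_⟩
  rw [mul_one]
  have h5 : closure {x | ∃ n ∈ normalizer (V : Set X), ∃ s ∈ (S : Subgroup X), x = n * s * n⁻¹} ≤ twoGen V := by
    rw [closure_le]
    rintro _ ⟨n, hn, s, hs, rfl⟩
    refine subset_closure ⟨mul_mem (mul_mem hn (h2 hs)) (inv_mem hn), ?_⟩
    obtain ⟨k, hk⟩ := S.2 ⟨s, hs⟩
    refine ⟨k, ?_⟩
    have hk' : s ^ 2 ^ k = 1 := congrArg Subtype.val hk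
    rw [conj_pow, hk', mul_one, mul_inv_cancel]
  exact h5 (h4 hg)

theorem row_of_phi (h : ∀ S : Sylow 2 X, Phi (S : Subgroup X)) : RowTwo X := by
  obtain ⟨S⟩ : Nonempty (Sylow 2 X) := inferInstance
  exact Or.inl (oddRow_of_phi (h S))

theorem row_j4 (h : Spor.IsoJ4 X) : RowTwo X := row_of_phi (SporPhi.j4 h)

theorem row_suz (h : Spor.IsoSuz X) : RowTwo X := row_of_phi (SporPhi.suz h)

theorem row_co1 (h : Spor.IsoCo1 X) : RowTwo X := row_of_phi (SporPhi.co1 h)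

theorem row_co2 (h : Spor.IsoCo2 X) : RowTwo X := row_of_phi (SporPhi.co2 h)

theorem row_th (h : Spor.IsoTh X) : RowTwo X := row_of_phi (SporPhi.th h)

theorem row_hn (h : Spor.IsoHN X) : RowTwo X := row_of_phi (SporPhi.hn h)

theorem row_fi24 (h : Spor.IsoFi24' X) : RowTwo X := row_of_phi (SporPhi.fi24 h)

theorem row_b (h : Spor.IsoB X) : RowTwo X := row_of_phi (SporPhi.b h)

theorem row_m (h : Spor.IsoM X) : RowTwo X := row_of_phi (SporPhi.m h)

end Cfsg.Agent.H796.SporRows
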